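import Mathlib
import Cfsg.Agent.Lib.Helper14.DG33.Defs

/-!
# DG33 (S3670), package [LIN]: the linear character of `B` with kernel `P`
-/

set_option autoImplicit false

universe u

namespace Cfsg.Agent.Lib.Helper93.DG33

open Cfsg.Agent.Lib.Helper14.DG33

theorem pkgLin : PkgLin.{u} := by
  intro G _ _ B P Z t w D
  have R := D.raw
  let P' : Subgroup B := P.subgroupOf B
  have hN : P'.Normal := by
    constructor
    intro n hn g
    exact R.Pnorm g g.2 n hn
  let t' : B := ⟨t, R.tB⟩
  let g : B ⧸ P' := QuotientGroup.mk t'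
  have hgen : ∀ x : B ⧸ P', x ∈ Subgroup.zpowers g := by
    intro x
    induction x using QuotientGroup.induction_on with
    | H b =>
      obtain ⟨k, hk⟩ := R.BPT b b.2
      have hk' : b * t' ^ k ∈ P' := hk
      rw [Subgroup.mem_zpowers_iff]
      refine ⟨-(k : ℤ), ?_⟩
      have h1 : (QuotientGroup.mk (b * t' ^ k) : B ⧸ P') = 1 :=
        (QuotientGroup.eq_one_iff _).mpr hk'
      rw [QuotientGroup.mk_mul, QuotientGroup.mk_pow] at h1
      rw [zpow_neg, zpow_natCast]
      exact (eq_inv_of_mul_eq_one_left h1).symm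
  have hord : orderOf g = 8 := by
    rw [orderOf_eq_iff (by norm_num)]
    constructor
    · have h1 : t' ^ 8 = 1 := by
        apply Subtype.ext
        change t ^ 8 = 1
        rw [← R.ordt]
        exact pow_orderOf_eq_one t
      change (QuotientGroup.mk t' : B ⧸ P') ^ 8 = 1
      rw [← QuotientGroup.mk_pow, h1]
      rfl
    · intro m hm hm0 h
      change (QuotientGroup.mk t' : B ⧸ P') ^ m = 1 at h
      rw [← QuotientGroup.mk_pow, QuotientGroup.eq_one_iff] at h
      have h2 : t ^ m ∈ P := h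
      have h3 := R.PT m h2
      have h4 := orderOf_dvd_of_pow_eq_one h3
      rw [R.ordt] at h4
      exact absurd (Nat.le_of_dvd hm0 h4) (by omega)
  have hζ := Complex.isPrimitiveRoot_exp 8 (by norm_num)
  let ζ : ℂˣ := (hζ.isUnit (by norm_num)).unit
  have hζ' : IsPrimitiveRoot ζ 8 := by
    rw [← IsPrimitiveRoot.coe_units_iff]
    exact hζ
  have hoζ : orderOf ζ = 8 := hζ'.eq_orderOf.symm
  let φ : B ⧸ P' →* ℂˣ := monoidHomOfForallMemZpowers hgen (g' := ζ) (by rw [hoζ, hord])
  have hφg : φ g = ζ := monoidHomOfForallMemZpowers_apply_gen hgen _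
  refine ⟨φ.comp (QuotientGroup.mk' P'), ⟨?_, ?_⟩⟩
  · intro ht
    change IsPrimitiveRoot ((φ g : ℂˣ) : ℂ) 8
    rw [hφg]
    exact hζ
  · intro b
    change φ (QuotientGroup.mk b) = 1 ↔ (b : G) ∈ P
    constructor
    · intro h
      obtain ⟨j, hj⟩ := Subgroup.mem_zpowers_iff.mp (hgen (QuotientGroup.mk b))
      rw [← hj, map_zpow, hφg] at h
      have h8 : (orderOf ζ : ℤ) ∣ j := orderOf_dvd_iff_zpow_eq_one.mpr h
      rw [hoζ, ← hord] at h8
      have h9 : g ^ j = 1 := orderOf_dvd_iff_zpow_eq_one.mp h8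
      rw [hj] at h9
      exact (QuotientGroup.eq_one_iff b).mp h9
    · intro h
      have h1 : (QuotientGroup.mk b : B ⧸ P') = 1 := (QuotientGroup.eq_one_iff b).mpr h
      rw [h1, map_one]

end Cfsg.Agent.Lib.Helper93.DG33
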