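import Mathlib
import Cfsg.Agent.Lib.Helper14.DG33.Defs
import Cfsg.Agent.Lib.Helper15.LinChar

/-!
# DG33 (S3670), packages [PERF1] and [INDDEG]
-/

set_option autoImplicit false

universe u

namespace Cfsg.Agent.Lib.Helper93.DG33

open Cfsg.Agent.Lib.Helper14.DG33

/-- [PERF1] a perfect group has only the trivial linear character -/
theorem pkgPerf1 : PkgPerf1.{u} := by
  intro G _ _ hperf χ hχ h1
  obtain ⟨n, ρ, -, hρ⟩ := hχ
  have hc : Cfsg.IsCharacter G χ := ⟨n, ρ, hρ⟩
  funext g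
  have hk : g ∈ (Cfsg.Agent.Lib.Helper15.linCharHom hc h1).ker := by
    have h2 := Abelianization.commutator_subset_ker (Cfsg.Agent.Lib.Helper15.linCharHom hc h1)
    rw [hperf] at h2
    exact h2 (Subgroup.mem_top g)
  rw [MonoidHom.mem_ker] at hk
  rw [← Cfsg.Agent.Lib.Helper15.linCharHom_apply hc h1 g, hk]
  rfl

/-- [INDDEG] the degree of an induced function -/
theorem pkgIndDeg : PkgIndDeg.{u} := by
  intro G _ _ B θ
  have h1 : ∀ x : G, Cfsg.extendByZero B θ (x⁻¹ * 1 * x) = θ 1 := by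
    intro x
    have h2 : x⁻¹ * 1 * x = ((1 : B) : G) := by simp
    rw [h2]
    exact Subtype.val_injective.extend_apply θ 0 1
  have hB : (Nat.card B : ℂ) ≠ 0 := by
    have h3 : 0 < Nat.card B := Nat.card_pos
    exact_mod_cast h3.ne'
  unfold Cfsg.indFun
  simp only [h1, Finset.sum_const, Finset.card_univ, nsmul_eq_mul]
  rw [← mul_assoc, mul_inv_cancel₀ hB, one_mul, Nat.card_eq_fintype_card]

end Cfsg.Agent.Lib.Helper93.DG33
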